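import Cfsg.Agent.H289.D4T.Rgd
import Cfsg.Agent.H460.EngFix

/-!
# Invariant parabolic subgroups and invariant residues (helper289, S4114)

* `exists_res` : if `g₀ M g₀⁻¹` is invariant, `B ≤ M`, then `θ` stabilises a residue;
* `tri_false` : triality does not satisfy `CCP` if it stabilises a proper residue, panels with three or four chambers.
-/

set_option autoImplicit false
set_option linter.unusedSectionVars false

open scoped Pointwise

namespace Cfsg.Agent.H289.D4T

open CoxeterSystem Cfsg.Agent.ChevalleyStructure.CoxeterGeom Cfsg.Agent.Tits.Roots Cfsg.Agent.Tits.Core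
  Cfsg.Agent.Tits.RootComb Cfsg.Agent.Nodes Cfsg.Agent.Nodes.Comb Cfsg.Agent.Nodes.Reps Cfsg.Agent.Nodes.BNOf
  Cfsg.Agent.Nodes.BNOf.RGD
  Cfsg.Agent.FixBN Cfsg.Agent.Tits.OfBN Cfsg.Agent.Tits.OppRes Cfsg.Agent.LieExceptional.BNPairCore
  Cfsg.Agent.OddHalf.Table.AutBldg Cfsg.Agent.OddHalf.Table.AutRGD Cfsg.Agent.OddHalf.Table.AutNorm
  Cfsg.Agent.Tits Cfsg.Agent.Nodes.RGDLib Cfsg.Agent.UGT.U2.FOne
open Cfsg.Agent.Tits.Core.Bldg Cfsg.Agent.H289.Tri Cfsg.Agent.H520
open Cfsg.Agent.H459.Gallery (Iv cx cx_apply)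
open Cfsg.Agent.H460.Typed (LNode)
open Cfsg.Agent.H694 (PJ mem_PJ)

section Res

variable {K : Type*} [Group K] [Finite K] {P : Cfsg.BNPair K} [hN : ((P.B ⊓ P.N).subgroupOf P.N).Normal] {l : ℕ}
  {M : CoxeterMatrix (Fin l)} (e : Fin l ≃ P.S) (cs : CoxeterSystem M (WP P))
  (hcs : ∀ i, cs.simple i = QuotientGroup.mk (⟨(e i : K), P.subset (e i).2⟩ : P.N)) [hC : Cox cs]

/-- **From an invariant parabolic subgroup to an invariant residue.** -/
theorem exists_res {t : FixOdd.Tw (bldg P e cs hcs) K} {M₀ : Subgroup K} {g₀ : K} (hB : P.B ≤ M₀) (hM : M₀ ≠ ⊤)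
    (hiv : Iv (cx t.τ g₀) M₀) : ∃ J : Set (Fin l), J ≠ Set.univ ∧ (∀ i ∈ J, t.σ i ∈ J) ∧
      t.θ (QuotientGroup.mk g₀) ∈ (bldg P e cs hcs).Res J (QuotientGroup.mk g₀) := by
  have hMJ : M₀ = PJ P e {i | (e i : K) ∈ M₀} := by
    have hS : P.S ∩ M₀ = (fun i => (e i : K)) '' {i | (e i : K) ∈ M₀} := by
      ext s
      constructor
      · rintro ⟨hs, hsM⟩
        refine ⟨e.symm ⟨s, hs⟩, ?_, by simp⟩
        rw [Set.mem_ofPred_eq, e.apply_symm_apply]
        exact hsM
      · rintro ⟨i, hi, rfl⟩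
        exact ⟨(e i).2, hi⟩
    have h1 := eq_parabolic hB
    rw [hS] at h1
    exact h1
  set J : Set (Fin l) := {i | (e i : K) ∈ M₀} with hJ
  have hmem : ∀ k, k ∈ M₀ ↔ wt P k ∈ WJ cs J := by
    intro k
    conv_lhs => rw [hMJ]
    exact mem_PJ e cs hcs
  -- the image of a chamber of the residue
  have key : ∀ u ∈ M₀, ∀ g' : K, t.θ (QuotientGroup.mk (g₀ * u)) = QuotientGroup.mk g' → g₀⁻¹ * g' ∈ M₀ := by
    intro u hu g' hg'
    have h1 : (g₀⁻¹ * g')⁻¹ ∈ M₀ := by
      refine Cfsg.Agent.S0313.mem_of_conj_borel_le P M₀ hB _ fun b hb => ?_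
      rw [inv_inv]
      set k := g' * b * g'⁻¹ with hk
      have h2 : k • (QuotientGroup.mk g' : K ⧸ P.B) = QuotientGroup.mk g' := by
        rw [FixBN.OfBN.smul_mk_eq, hk]
        have : g'⁻¹ * (g' * b * g'⁻¹) * g' = b := by group
        rw [this]; exact hb
      have h3 : (t.τ.symm k) • (QuotientGroup.mk (g₀ * u) : K ⧸ P.B) = QuotientGroup.mk (g₀ * u) := by
        apply t.θ.injective
        rw [t.θ_smul, MulEquiv.apply_symm_apply, hg', h2]
      rw [FixBN.OfBN.smul_mk_eq] at h3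
      set b' := (g₀ * u)⁻¹ * t.τ.symm k * (g₀ * u) with hb'
      have h4 : t.τ (g₀ * (u * b' * u⁻¹) * g₀⁻¹) = k := by
        have : g₀ * (u * b' * u⁻¹) * g₀⁻¹ = t.τ.symm k := by rw [hb']; group
        rw [this, MulEquiv.apply_symm_apply]
      have h5 := hiv (u * b' * u⁻¹) (mul_mem (mul_mem hu (hB h3)) (inv_mem hu))
      rw [cx_apply, h4] at h5
      have h6 : g₀⁻¹ * g' * b * (g₀⁻¹ * g')⁻¹ = g₀⁻¹ * k * g₀ := by rw [hk]; group
      rw [h6]
      exact h5
    have := inv_mem h1
    rwa [inv_inv] at this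
  have hres : ∀ u ∈ M₀, t.θ (QuotientGroup.mk (g₀ * u)) ∈ (bldg P e cs hcs).Res J (QuotientGroup.mk g₀) := by
    intro u hu
    obtain ⟨g', hg'⟩ := QuotientGroup.mk_surjective (t.θ (QuotientGroup.mk (g₀ * u)))
    rw [← hg', mem_Res, bldg_δ_mk, ← hmem]
    exact key u hu g' hg'.symm
  have hone := hres 1 (one_mem _)
  rw [mul_one] at hone
  refine ⟨J, ?_, ?_, hone⟩
  · intro hu
    apply hM
    rw [eq_top_iff]
    intro k _
    rw [hmem, hu, WJ_univ]
    trivial
  · intro i hi
    have h1 := hres (e i) hi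
    have h2 := δ_mem_of_mem_Res _ hone h1
    rw [t.δ_θ, bldg_δ_mk, inv_mul_cancel_left] at h2
    have h3 : wt P (e i : K) = cs.simple i := by
      rw [hcs]
      exact wt_of_mem P (self_mem_C _)
    rw [h3, t.φ_simple] at h2
    exact Tits.Ext.mem_of_simple_mem_WJ hC.inj h2

end Res

section Ty

variable {W : Type*} [Group W] {cs : CoxeterSystem (TypeD.M 2) W} {C : Type*} {Δ : Bldg cs C}
  {G : Type*} [Group G] [MulAction G C] {a b c : Fin 4} {t : FixOdd.Tw Δ G}

/-- **The type of a minimal invariant residue.** -/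
theorem stab_type (D : RotD t a b c) {J : Set (Fin 4)} (hJ : t.Stab J) (hne : J ≠ Set.univ) :
    J ⊆ {1} ∨ J = {a, b, c} := by
  have hall := out_all a b c D.out
  by_cases ha : ∃ i ∈ J, i ≠ 1
  · right
    have h3 : a ∈ J ∧ b ∈ J ∧ c ∈ J := by
      obtain ⟨i, hi, hi1⟩ := ha
      rcases hall i with rfl | rfl | rfl | rfl
      · exact absurd rfl hi1
      · have hb := hJ _ hi
        rw [D.ab] at hb
        have hc := hJ _ hb
        rw [D.bc] at hc
        exact ⟨hi, hb, hc⟩
      · have hc := hJ _ hi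
        rw [D.bc] at hc
        have ha := hJ _ hc
        rw [D.ca] at ha
        exact ⟨ha, hi, hc⟩
      · have ha := hJ _ hi
        rw [D.ca] at ha
        have hb := hJ _ ha
        rw [D.ab] at hb
        exact ⟨ha, hb, hi⟩
    by_cases h1 : (1 : Fin 4) ∈ J
    · exfalso
      apply hne
      ext i
      simp only [Set.mem_univ, iff_true]
      rcases hall i with rfl | rfl | rfl | rfl
      · exact h1
      · exact h3.1
      · exact h3.2.1
      · exact h3.2.2
    · ext i
      constructor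
      · intro hi
        rcases hall i with rfl | rfl | rfl | rfl
        · exact absurd hi h1
        · simp
        · simp
        · simp
      · rintro (rfl | rfl | rfl)
        · exact h3.1
        · exact h3.2.1
        · exact h3.2.2
  · left
    intro i hi
    by_contra hi1
    exact ha ⟨i, hi, hi1⟩

variable [Finite C] [Finite G] {l : ℕ} [F : OppRes.Cox cs]

/-- **`CCP` and triality: no proper invariant residue.** -/
theorem abs_false (S : Sys Δ G l) (D : RotD t a b c) (hccp : H520.CCP t.τ) (hD : DT Δ G) (hT : T2o Δ G) (h5 : T5 Δ G)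
    (hc : (∀ i d, Nat.card (Δ.Pan i d) = 3) ∨ (∀ i d, Nat.card (Δ.Pan i d) = 4)) {J : Set (Fin 4)} (hJ : J ≠ Set.univ)
    (hst : t.Stab J) {y : C} (hy : t.θ y ∈ Δ.Res J y) : False := by
  have hstq : t.Stab {a, b, c} := by
    rintro i (rfl | rfl | rfl)
    · rw [D.ab]; simp
    · rw [D.bc]; simp
    · rw [D.ca]; simp
  -- the residue of the outer nodes
  have key : ∀ z, t.θ z ∈ Δ.Res {a, b, c} z → False := by
    intro z hz
    have hQ := t.θ_stable_Res hstq hz
    rcases hc with h | h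
    · obtain ⟨w, -, hw⟩ := exists_fixed_three S D hccp hT hQ (h a z)
      exact no_fixed_two S D hccp hT h5 h hw
    · exact outer_four S D hccp hT hQ (h a z)
  obtain ⟨K, hKJ, z, hz, hK⟩ := t.exists_gd hst hy
  have hKne : K ≠ Set.univ := fun h => hJ (Set.eq_univ_of_univ_subset (h ▸ hKJ))
  rcases stab_type D hK.st hKne with h1 | h1
  · rcases Set.subset_singleton_iff_eq.1 h1 with rfl | rfl
    · refine key z ?_
      have := hK.mem
      rw [Δ.Res_empty] at this
      rw [this]
      exact Δ.self_mem_Res _ _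
    · refine cent_panel S hD hccp (x := z) ?_ ?_ ?_
      · intro d hd
        rw [Δ.Pan_eq_Res] at hd ⊢
        exact hK.θ_stable d hd
      · intro w hw hw'
        rw [Δ.Pan_eq_Res] at hw
        have := hK.min w hw ∅ (Set.empty_subset _) (fun i hi => hi.elim) (by
          rw [hw']; exact Δ.self_mem_Res _ _)
        exact Set.singleton_ne_empty _ this.symm
      · rcases hc with h | h
        · exact Or.inl (h 1 z)
        · exact Or.inr (h 1 z)
  · subst h1
    exact key z hK.mem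

end Ty

end Cfsg.Agent.H289.D4T
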